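import Cfsg.Agent.H512.TDFour.OneCls
import Cfsg.Agent.Nodes.RGDTwD4
import Cfsg.Agent.H78.Pw.Base

/-!
# Long root elements of `³D₄(q)` are in `G₂(q)` (helper878, S2465)

* `exists_gtwo` : `G₂(q) ≤ ³D₄(q)` containing the long root group `X φ q (sr 0)`;
* `pr_root` : every element of a long root group is a product of two elements of order prime to `n`, if this is true
  in `G₂(q)`.
-/

set_option autoImplicit false

namespace Cfsg.Agent.H878.TD.Root

open Subgroup Cfsg Cfsg.Lie Cfsg.Agent.ChevalleyStructure Cfsg.Agent.ChevalleyStructure.Elts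
  Cfsg.Agent.ChevalleyStructure.D4Fixed Cfsg.Agent.ChevalleyStructure.D4NConj
  Cfsg.Agent.ChevalleyStructure.D4NCheck Cfsg.Agent.ChevalleyStructure.D4Perfect Cfsg.Agent.ChevalleyStructure.D4Comm
open Cfsg.Agent.ChevalleyStructure.CoxeterGeom Cfsg.Agent.Tits.Roots Cfsg.Agent.Tits.Core
open CoxeterSystem Cfsg.Agent.Tits.RootComb Cfsg.Agent.Nodes.Comb Cfsg.Agent.Nodes.Reps Cfsg.Agent.Nodes.BNOf Cfsg.Agent.H78.Pw

/-- **`G₂(q) ≤ ³D₄(q)`** contains the long root group. -/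
theorem exists_gtwo {K : Type} [Field K] [Fintype K] {q : ℕ} (hq : IsPrimePow q) (hK : Fintype.card K = q ^ 3)
    {φ : K →+* K} (hφ : ∀ x, φ x = x ^ q) :
    ∃ (k : Type) (_ : Field k) (_ : Fintype k) (M : Subgroup ↥(twistedD4 K q)), Fintype.card k = q ∧
      Nonempty (↥M ≃* ↥(chevG2.group k)) ∧ Nodes.RGDTwD4.X φ q (sr 0) ≤ M := by
  let S : Set (K →+* K) := {RingHom.id K, φ}
  have hid : RingHom.id K ∈ S := Or.inl rfl
  have hmem : ∀ t : K, t ∈ CpAutTri.Gen.kF S ↔ φ t = t := by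
    intro t
    rw [CpAutTri.Gen.mem_kF]
    constructor
    · intro h
      exact h φ (Or.inr rfl)
    · rintro h ψ (rfl | hψ)
      · rfl
      · rw [Set.mem_singleton_iff.1 hψ]
        exact h
  have hle : CpAutTri.Nor.DS S ≤ twistedD4 K q := by
    refine CpAutTri.Gen.DS_le hid ?_ ?_ ?_ ?_
    · intro t ht
      have h1 := (hmem t).1 ht
      rw [hφ] at h1
      exact D4Fixed.x14_mem h1
    · intro t ht
      have h1 := (hmem t).1 ht
      rw [hφ] at h1
      exact D4Fixed.x9_mem h1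
    · intro t ht
      have h1 := (hmem t).1 ht
      have h2 := D4Fixed.X_mem hφ t
      have h3 : CpAutTri.Gen.X t = D4Fixed.X φ t := by
        rw [CpAutTri.Gen.X_eq]
        unfold D4Fixed.X
        rw [h1, h1]
        rfl
      rw [h3]
      exact h2
    · intro t ht
      have h1 := (hmem t).1 ht
      have h2 := D4Fixed.Y_mem hφ t
      have h3 : CpAutTri.Gen.Y t = D4Fixed.Y φ t := by
        rw [CpAutTri.Gen.Y_eq]
        unfold D4Fixed.Y
        rw [h1, h1]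
        rfl
      rw [h3]
      exact h2
  obtain ⟨e⟩ := CpAutTri.Hom.equivG2 hid (by
    intro g hg h
    have hf : g ∈ D4Fixed.fix (RingHom.id K) := CpAutTri.Hom.DS_le_fix hid hg
    refine H207.TriFix.rho3_inj (CpAutTri.Nor.DS_le_G _ hg) hf ?_
    apply Units.ext
    rw [CpAutTri.Hom.coe_rho3]
    show CpAutTri.Iota.J K * ((g : Matrix chevD4.Idx chevD4.Idx K) * CpAutTri.Iota.I K) = 1
    rw [h, CpAutTri.Iota.J_mul_I])
  classical
  have hfin : Fintype ↥(CpAutTri.Gen.kF S) := Fintype.ofFinite _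
  have hcard : Fintype.card ↥(CpAutTri.Gen.kF S) = q := by
    rw [← Nat.card_eq_fintype_card, ← D4U.card_fix_field hq.one_lt hK hφ]
    exact Nat.card_congr (Equiv.subtypeEquivRight hmem)
  refine ⟨_, inferInstance, hfin, (CpAutTri.Nor.DS S).subgroupOf (twistedD4 K q), hcard,
    ⟨(Subgroup.subgroupOfEquivOfLe hle).trans e⟩, ?_⟩
  intro g hg
  rw [Nodes.RGDTwD4.X, Subgroup.mem_subgroupOf, Nodes.RGDTwD4.R0] at hg
  rw [Subgroup.mem_subgroupOf]
  refine CpAutTri.Nor.RS_O_le (o := [14]) (r := 14) (by decide +kernel) S ⟨hg.1, CpAutTri.Fam.mem_FS.2 ?_⟩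
  rintro ψ (rfl | hψ)
  · obtain ⟨t, ht⟩ := CpAutTri.TriD.exists_RS1 (K := K) (r := 14) (by decide +kernel) hg.1
    rw [ht, D4U.sig_14]
    rfl
  · rw [Set.mem_singleton_iff.1 hψ]
    exact hg.2

/-- **Long root elements**, the simple long root. -/
theorem pr_root0 {K : Type} [Field K] [Fintype K] {q : ℕ} (hq : IsPrimePow q) (hK : Fintype.card K = q ^ 3)
    {φ : K →+* K} (hφ : ∀ x, φ x = x ^ q) {n : ℕ}
    (h2 : ∀ (k : Type) [Field k] [Fintype k], Fintype.card k = q → All n ↥(chevG2.group k))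
    {z : ↥(twistedD4 K q)} (hz : z ∈ Nodes.RGDTwD4.X φ q (sr 0)) : Pr n z := by
  obtain ⟨k, _, _, M, hk, ⟨e⟩, hM⟩ := exists_gtwo hq hK hφ
  exact Pr.of_mem ((h2 k hk).congr e.symm) (hM hz)

/-- **Long root elements**: every long root. -/
theorem pr_root {K : Type} [Field K] [Fintype K] {q : ℕ} (hq : IsPrimePow q) (hK : Fintype.card K = q ^ 3)
    {φ : K →+* K} (hφ : ∀ x, φ x = x ^ q) {n : ℕ}
    (h2 : ∀ (k : Type) [Field k] [Fintype k], Fintype.card k = q → All n ↥(chevG2.group k))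
    {W : Type*} [Group W] (cs : CoxeterSystem CoxeterMatrix.G₂ W) (w : W)
    {z : ↥(twistedD4 K q)} (hz : z ∈ Nodes.RGDTwD4.X φ q (rep cs Nodes.RGDTwD4.isCartan w (sr 0))) : Pr n z := by
  obtain ⟨p, hp'⟩ := CharP.exists K
  have : Fact p.Prime := ⟨CharP.char_is_prime K p⟩
  have R := Nodes.RGDTwD4.rgd cs hK hφ p
  obtain ⟨g, hg⟩ := exists_rp cs R.nsys w
  have h1 := R.conj_mem' hg (x := rep cs Nodes.RGDTwD4.isCartan w (sr 0)) ⟨w, 0, rfl⟩ hz
  rw [← rep_mul_apply, inv_mul_cancel, map_one, Module.End.one_apply] at h1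
  have h3 := (pr_root0 hq hK hφ h2 h1).conj g
  rwa [show g * (g⁻¹ * z * g) * g⁻¹ = z by group] at h3

end Cfsg.Agent.H878.TD.Root
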